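import Cfsg.Agent.H892.TNumE8
import Cfsg.Agent.H378.AdjE8
import Cfsg.Agent.H378.ExcNear
import Cfsg.Agent.H129.CycT2

/-!
# An element of `E₈(u)` of order divisible by `u⁸ - 1` (helper76)

The torus of `E₈` of type `A₇`: the Coxeter element of the parabolic subgroup of type `A₇` has a cyclic vector.
-/

set_option autoImplicit false

namespace Cfsg.Agent.H76.TP.E8Tor

open Cfsg Cfsg.Lie Subgroup
open Cfsg.Agent.H129.WData Cfsg.Agent.H378.AdjTab Cfsg.Agent.H378.CycTab Cfsg.Agent.H493.PGTorus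
open Cfsg.Agent.ChevalleyStructure.CoxeterGeomTypes Cfsg.Agent.Nodes.RGDChev
open Cfsg.Agent.BpExc.FamInst Cfsg.Agent.BpExc.RowsUntw
open Cfsg.Lie Cfsg.Lie.ChevalleyDatum
open Cfsg.Agent.H378

universe u

/-- the partial products of the Coxeter element of type `A₇` -/
def L8 : List (Fin 8 × Mat 8) := [
    (0, ![![0, 0, 1, 0, 0, 0, 0, 0],
        ![1, 1, 1, 1, 0, 0, 0, 0],
        ![0, 0, 0, 1, 0, 0, 0, 0],
        ![0, 0, 0, 0, 1, 0, 0, 0],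
        ![0, 0, 0, 0, 0, 1, 0, 0],
        ![0, 0, 0, 0, 0, 0, 1, 0],
        ![0, 0, 0, 0, 0, 0, 0, 1],
        ![-1, 0, -1, -1, -1, -1, -1, -1]]),
    (2, ![![1, 0, 1, 0, 0, 0, 0, 0],
        ![0, 1, 1, 1, 0, 0, 0, 0],
        ![0, 0, 0, 1, 0, 0, 0, 0],
        ![0, 0, 0, 0, 1, 0, 0, 0],
        ![0, 0, 0, 0, 0, 1, 0, 0],
        ![0, 0, 0, 0, 0, 0, 1, 0],
        ![0, 0, 0, 0, 0, 0, 0, 1],
        ![0, 0, -1, -1, -1, -1, -1, -1]]),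
    (3, ![![1, 0, 0, 0, 0, 0, 0, 0],
        ![0, 1, 0, 1, 0, 0, 0, 0],
        ![0, 0, 1, 1, 0, 0, 0, 0],
        ![0, 0, 0, 0, 1, 0, 0, 0],
        ![0, 0, 0, 0, 0, 1, 0, 0],
        ![0, 0, 0, 0, 0, 0, 1, 0],
        ![0, 0, 0, 0, 0, 0, 0, 1],
        ![0, 0, 0, -1, -1, -1, -1, -1]]),
    (4, ![![1, 0, 0, 0, 0, 0, 0, 0],
        ![0, 1, 0, 0, 0, 0, 0, 0],
        ![0, 0, 1, 0, 0, 0, 0, 0],
        ![0, 0, 0, 1, 1, 0, 0, 0],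
        ![0, 0, 0, 0, 0, 1, 0, 0],
        ![0, 0, 0, 0, 0, 0, 1, 0],
        ![0, 0, 0, 0, 0, 0, 0, 1],
        ![0, 0, 0, 0, -1, -1, -1, -1]]),
    (5, ![![1, 0, 0, 0, 0, 0, 0, 0],
        ![0, 1, 0, 0, 0, 0, 0, 0],
        ![0, 0, 1, 0, 0, 0, 0, 0],
        ![0, 0, 0, 1, 0, 0, 0, 0],
        ![0, 0, 0, 0, 1, 1, 0, 0],
        ![0, 0, 0, 0, 0, 0, 1, 0],
        ![0, 0, 0, 0, 0, 0, 0, 1],
        ![0, 0, 0, 0, 0, -1, -1, -1]]),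
    (6, ![![1, 0, 0, 0, 0, 0, 0, 0],
        ![0, 1, 0, 0, 0, 0, 0, 0],
        ![0, 0, 1, 0, 0, 0, 0, 0],
        ![0, 0, 0, 1, 0, 0, 0, 0],
        ![0, 0, 0, 0, 1, 0, 0, 0],
        ![0, 0, 0, 0, 0, 1, 1, 0],
        ![0, 0, 0, 0, 0, 0, 0, 1],
        ![0, 0, 0, 0, 0, 0, -1, -1]]),
    (7, ![![1, 0, 0, 0, 0, 0, 0, 0],
        ![0, 1, 0, 0, 0, 0, 0, 0],
        ![0, 0, 1, 0, 0, 0, 0, 0],
        ![0, 0, 0, 1, 0, 0, 0, 0],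
        ![0, 0, 0, 0, 1, 0, 0, 0],
        ![0, 0, 0, 0, 0, 1, 0, 0],
        ![0, 0, 0, 0, 0, 0, 1, 1],
        ![0, 0, 0, 0, 0, 0, 0, -1]])]

/-- the eigenvector modulo `x⁸ - 1` -/
def V8 : Fin (7 + 1) → Fin 8 → ℤ := ![![1, 1, 1, 2, 2, 1, 1, 1],
        ![0, 1, 1, 2, 1, 1, 1, 0],
        ![1, 1, 2, 2, 2, 2, 1, 1],
        ![1, 1, 1, 2, 2, 1, 1, 0],
        ![0, 1, 1, 2, 1, 1, 0, 0],
        ![1, 1, 2, 2, 2, 1, 1, 1],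
        ![1, 1, 1, 2, 1, 1, 1, 0],
        ![0, 1, 1, 1, 1, 1, 0, 0]]

/-- the functional -/
def U8 : Fin 8 → ℤ := ![0, 1, -1, 0, 0, 0, 0, 1]

/-- `x⁸ - 1` -/
def c8 : Fin (7 + 1) → ℤ := ![-1, 0, 0, 0, 0, 0, 0, 0]

theorem chain : ChainOK AdjE8.Am L8 := by decide +kernel

theorem eig : EigOK (hd L8) c8 V8 U8 := by decide +kernel

variable {F : Type u} [Field F] [Fintype F]

theorem elt_E8 {v : ℕ} (hF : Fintype.card F = v) : ∃ x : ↥(chevE8.group F), v ^ 8 - 1 ∣ orderOf x := by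
  let cs : CoxeterSystem CoxeterMatrix.E₈ CoxeterMatrix.E₈.Group := CoxeterMatrix.E₈.toCoxeterSystem
  have hFN : Nat.card F = v := by rw [Nat.card_eq_fintype_card, hF]
  have hv2 : 2 ≤ v := by rw [← hF]; exact Fintype.one_lt_card
  have h1 : 1 < v ^ 8 := Nat.one_lt_pow (by norm_num) (by omega)
  have hd : ((v ^ 8 - 1 : ℕ) : ℤ) ∣ pv c8 ((Nat.card F : ℕ) : ℤ) := by
    have e : pv c8 ((Nat.card F : ℕ) : ℤ) = ((v ^ 8 - 1 : ℕ) : ℤ) := by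
      rw [hFN]
      push_cast [Nat.cast_sub h1.le]
      simp [pv, c8, Fin.sum_univ_succ]
      ring
    rw [e]
  have : Finite CoxeterMatrix.E₈.Group := Cfsg.Agent.H129.CycT.finite_W8
  obtain ⟨x, -, -, hx, -⟩ := exists_comm_torus e8T cs inv_E8 one_ne_zero AdjE8.hA chain eig eig (F := F)
    (m := v ^ 8 - 1) (m' := v ^ 8 - 1) (by omega) (by omega) hd hd
  rw [Nat.gcd_one_left, mul_one] at hx
  exact ⟨x, hx⟩

end Cfsg.Agent.H76.TP.E8Tor
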