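import Cfsg.Agent.H202.T.Enum
import Cfsg.Agent.H160.QChar
import Cfsg.Agent.H202.TP.Budget

/-!
# Block TP (S3536): eigenvalues (helper76)

`R` a multiset of at most `2 n` nonzero elements of a field closed under `x ↦ x ^ q` and inversion, `n = 2 ^ k`.

* `iso_core` : an element of order divisible by an odd prime divisor of `q ^ n + 1`: `R` is one orbit, `x ^ ((q ^ n + 1) / 2) = ±1`;
* `two_core` : an element of order divisible by the 2-part of `q ^ n - 1`: `x ^ ((q ^ n - 1) / 2) = ±1`;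
* `exists_eig` : a prime power dividing the order of a linear map divides the order of an eigenvalue.
-/

set_option autoImplicit false
set_option linter.unusedSectionVars false

namespace Cfsg.Agent.H76.TP

open Module Polynomial
open Cfsg.Agent.H160.QRoots Cfsg.Agent.H160.QChar Cfsg.Agent.H202.T Cfsg.Agent.H202.TP

section

variable {K : Type*} [Field K] [DecidableEq K] {q : ℕ} {R : Multiset K}

theorem cl_of_inv0 (hq : Function.Injective (fun x : K => x ^ q)) (h : Inv0 q R) : Cl q R.toFinset where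
  ne x hx := h.ne0 x (Multiset.mem_toFinset.1 hx)
  frob x hx := by
    rw [Multiset.mem_toFinset, ← Multiset.one_le_count_iff_mem] at *
    rwa [h.frob]
  inv x hx := by
    rw [Multiset.mem_toFinset, ← Multiset.one_le_count_iff_mem] at *
    rwa [h.inv]
  inj x _ y _ e := hq e

theorem pow_sign {a : K} (ha : a = 1 ∨ a = -1) (hq : Odd q) (i : ℕ) : a ^ q ^ i = a := by
  rcases ha with rfl | rfl
  · rw [one_pow]
  · rw [hq.pow.neg_one_pow]

theorem inv_sign {a : K} (ha : a = 1 ∨ a = -1) : a⁻¹ = a := by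
  rcases ha with rfl | rfl
  · rw [inv_one]
  · rw [inv_neg, inv_one]

theorem sign_of_sq {a : K} (h : a ^ 2 = 1) : a = 1 ∨ a = -1 := by
  rw [pow_two] at h
  exact mul_self_eq_one_iff.1 h

/-- `R` has no multiplicities if its support is large -/
theorem count_le_one {N : ℕ} (hR : R.card ≤ N) (hN : N ≤ R.toFinset.card) (x : K) : R.count x ≤ 1 := by
  have h1 : R.toFinset.card ≤ R.card := Multiset.toFinset_card_le R
  have h2 : R.toFinset.card = R.card := by omega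
  exact Multiset.nodup_iff_count_le_one.1 (Multiset.toFinset_card_eq_card_iff_nodup.1 h2) x

theorem iso_core (hq : Function.Injective (fun x : K => x ^ q)) (hodd : Odd q) (h : Inv0 q R) {k : ℕ}
    (hR : R.card ≤ 2 ^ (k + 1)) {μ : K} (hμ : μ ∈ R) {r : ℕ} (hr : r.Prime) (hr2 : r ≠ 2) (hrq : r ∣ q ^ 2 ^ k + 1)
    (hrμ : r ∣ orderOf μ) :
    (∀ x, R.count x ≤ 1) ∧ ∃ a : K, (a = 1 ∨ a = -1) ∧ ∀ x ∈ R, x ^ ((q ^ 2 ^ k + 1) / 2) = a := by
  have hC := cl_of_inv0 hq h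
  have hμ' : μ ∈ R.toFinset := Multiset.mem_toFinset.2 hμ
  obtain ⟨l, hl, hlx⟩ := hC.exists_period hμ'
  have h1 : 2 ^ (k + 1) ∣ l := two_pow_dvd_period (hC.ne μ hμ') hodd.pos hlx hr hr2 hrq hrμ
  obtain ⟨hc, hO, hm⟩ := hC.orbit hμ' hl hlx
  have hcR : R.toFinset.card ≤ R.card := Multiset.toFinset_card_le R
  have h2 : l ≤ R.toFinset.card := by
    rw [← hc]
    exact Finset.card_le_card hO
  have hl' : l = 2 ^ (k + 1) := le_antisymm (by omega) (Nat.le_of_dvd hl h1)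
  have hOR : ((Finset.range l).image fun j => μ ^ q ^ j) = R.toFinset :=
    Finset.eq_of_subset_of_card_le hO (by rw [hc]; omega)
  have hsq : (μ ^ ((q ^ 2 ^ k + 1) / 2)) ^ 2 = 1 := by
    have e : (q ^ 2 ^ k + 1) / 2 * 2 = q ^ 2 ^ k + 1 :=
      Nat.div_mul_cancel (even_iff_two_dvd.1 hodd.pow.add_one)
    rw [← pow_mul, e]
    rcases hC.inv_dichotomy hμ' hl hlx hodd.pos with ⟨-, h5 | ⟨j, hj, hxj⟩⟩ | ⟨hin, -, -⟩
    · exfalso
      have h6 : r ∣ 2 := hrμ.trans (orderOf_dvd_of_pow_eq_one h5)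
      exact hr2 ((Nat.prime_dvd_prime_iff_eq hr Nat.prime_two).1 h6)
    · have hj2 : j = 2 ^ k := by
        rw [hl', pow_succ] at hj
        omega
      rwa [hj2] at hxj
    · exact (hin (by rw [hOR]; exact hC.inv μ hμ')).elim
  refine ⟨count_le_one hR (by omega), μ ^ ((q ^ 2 ^ k + 1) / 2), sign_of_sq hsq, fun x hx => ?_⟩
  have hx' := Multiset.mem_toFinset.2 hx
  rw [← hOR] at hx'
  obtain ⟨i, -, rfl⟩ := Finset.mem_image.1 hx'
  change (μ ^ q ^ i) ^ ((q ^ 2 ^ k + 1) / 2) = _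
  rw [← pow_mul, mul_comm, pow_mul, pow_sign (sign_of_sq hsq) hodd]

theorem mod_four {q j : ℕ} (hodd : Odd q) (hj : Even j) : q ^ j % 4 = 1 := by
  obtain ⟨i, rfl⟩ := hj
  obtain ⟨c, rfl⟩ := hodd
  rw [← two_mul, pow_mul, Nat.pow_mod]
  have : (2 * c + 1) ^ 2 % 4 = 1 := by
    have : (2 * c + 1) ^ 2 = 4 * (c ^ 2 + c) + 1 := by ring
    omega
  rw [this, one_pow]
  rfl

/-- the 2-part of `q ^ n - 1` divides no `q ^ l - 1` with `n ∤ l` -/
theorem dvd_of_two {q k a l : ℕ} (hodd : Odd q) (ha : 2 ^ a ∣ q ^ 2 ^ k - 1) (ha' : ¬ 2 ^ (a + 1) ∣ q ^ 2 ^ k - 1)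
    (hl : 2 ^ a ∣ q ^ l - 1) : 2 ^ k ∣ l := by
  have h1 : 2 ^ a ∣ q ^ Nat.gcd l (2 ^ k) - 1 := by
    rw [← Nat.pow_sub_one_gcd_pow_sub_one]
    exact Nat.dvd_gcd hl ha
  obtain ⟨b, hb, hbe⟩ := (Nat.dvd_prime_pow Nat.prime_two).1 (Nat.gcd_dvd_right l (2 ^ k))
  rcases Nat.lt_or_ge b k with h2 | h2
  · exfalso
    apply ha'
    obtain ⟨j, rfl⟩ : ∃ j, k = j + 1 := ⟨k - 1, by omega⟩
    rw [hbe] at h1
    have h3 : 2 ^ a ∣ q ^ 2 ^ j - 1 := by
      refine h1.trans ?_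
      obtain ⟨d, rfl⟩ : ∃ d, j = b + d := ⟨j - b, by omega⟩
      rw [pow_add 2 b d, pow_mul]
      simpa using Nat.sub_dvd_pow_sub_pow (q ^ 2 ^ b) 1 (2 ^ d)
    have h4 : q ^ 2 ^ (j + 1) - 1 = (q ^ 2 ^ j - 1) * (q ^ 2 ^ j + 1) := by
      have := Nat.sq_sub_sq (q ^ 2 ^ j) 1
      rw [← pow_mul, ← pow_succ] at this
      rw [mul_comm]
      simpa using this
    rw [h4, pow_succ]
    exact Nat.mul_dvd_mul h3 (even_iff_two_dvd.1 hodd.pow.add_one)
  · have : b = k := le_antisymm hb h2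
    rw [this] at hbe
    rw [← hbe]
    exact Nat.gcd_dvd_left l (2 ^ k)

theorem two_core (hq : Function.Injective (fun x : K => x ^ q)) (hodd : Odd q) (h : Inv0 q R) {k : ℕ} (hk : 2 ≤ k)
    (hR : R.card ≤ 2 ^ (k + 1)) {μ : K} (hμ : μ ∈ R) {a : ℕ} (ha : 2 ^ a ∣ q ^ 2 ^ k - 1)
    (ha' : ¬ 2 ^ (a + 1) ∣ q ^ 2 ^ k - 1) (haμ : 2 ^ a ∣ orderOf μ) :
    (∀ x, R.count x ≤ 1) ∧ ∃ a : K, (a = 1 ∨ a = -1) ∧ ∀ x ∈ R, x ^ ((q ^ 2 ^ k - 1) / 2) = a := by
  have hC := cl_of_inv0 hq h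
  have hμ' : μ ∈ R.toFinset := Multiset.mem_toFinset.2 hμ
  obtain ⟨l, hl, hlx⟩ := hC.exists_period hμ'
  have hx0 := hC.ne μ hμ'
  have hq1 : ∀ j, 1 ≤ q ^ j := fun j => Nat.one_le_pow _ _ hodd.pos
  have hml : μ ^ (q ^ l - 1) = 1 := (pow_sub_one_iff hx0 (hq1 l)).2 ((hlx l).2 dvd_rfl)
  have h1 : 2 ^ k ∣ l := dvd_of_two hodd ha ha' (haμ.trans (orderOf_dvd_of_pow_eq_one hml))
  have hk4 : 4 ∣ 2 ^ k := by
    have : 2 ^ 2 ∣ 2 ^ k := pow_dvd_pow 2 hk
    exact this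
  have ha2 : 2 ≤ a := by
    by_contra hc
    apply ha'
    have h4 : q ^ 2 ^ k % 4 = 1 := mod_four hodd (even_iff_two_dvd.2 ((by norm_num : 2 ∣ 4).trans hk4))
    have h5 : 2 ^ (a + 1) ∣ 2 ^ 2 := pow_dvd_pow 2 (by omega)
    refine h5.trans ?_
    norm_num
    omega
  have h4a : 4 ∣ 2 ^ a := by
    have : 2 ^ 2 ∣ 2 ^ a := pow_dvd_pow 2 ha2
    exact this
  obtain ⟨hc, hO, hm⟩ := hC.orbit hμ' hl hlx
  have hcR : R.toFinset.card ≤ R.card := Multiset.toFinset_card_le R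
  rcases hC.inv_dichotomy hμ' hl hlx hodd.pos with ⟨-, h5 | ⟨j, hj, hxj⟩⟩ | ⟨hin, h5, h6⟩
  · exfalso
    have h6 := Nat.le_of_dvd (by norm_num) (h4a.trans (haμ.trans (orderOf_dvd_of_pow_eq_one h5)))
    omega
  · exfalso
    have h6 : 4 ∣ q ^ j + 1 := h4a.trans (haμ.trans (orderOf_dvd_of_pow_eq_one hxj))
    have h7 : Even j := by
      have : 4 ∣ 2 * j := by rw [← hj]; exact hk4.trans h1
      rw [even_iff_two_dvd]
      omega
    have h8 := mod_four hodd h7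
    omega
  · have h7 : 2 * l ≤ R.toFinset.card := by
      rw [← h5]
      exact Finset.card_le_card h6
    have hl' : l = 2 ^ k := by
      refine le_antisymm ?_ (Nat.le_of_dvd hl h1)
      rw [pow_succ] at hR
      omega
    have h8 : (((Finset.range l).image fun j => μ ^ q ^ j) ∪ ((Finset.range l).image fun j => (μ⁻¹) ^ q ^ j)) =
        R.toFinset := by
      apply Finset.eq_of_subset_of_card_le h6
      rw [h5, hl']
      rw [pow_succ] at hR
      omega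
    have hsq : (μ ^ ((q ^ 2 ^ k - 1) / 2)) ^ 2 = 1 := by
      have e : (q ^ 2 ^ k - 1) / 2 * 2 = q ^ 2 ^ k - 1 :=
        Nat.div_mul_cancel (even_iff_two_dvd.1 (Nat.Odd.sub_odd hodd.pow odd_one))
      rw [← pow_mul, e, ← hl']
      exact hml
    refine ⟨count_le_one hR (by rw [pow_succ, ← hl']; omega), μ ^ ((q ^ 2 ^ k - 1) / 2), sign_of_sq hsq, fun x hx => ?_⟩
    have hx' := Multiset.mem_toFinset.2 hx
    rw [← h8] at hx'
    rcases Finset.mem_union.1 hx' with hx' | hx'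
    · obtain ⟨i, -, rfl⟩ := Finset.mem_image.1 hx'
      change (μ ^ q ^ i) ^ ((q ^ 2 ^ k - 1) / 2) = _
      rw [← pow_mul, mul_comm, pow_mul, pow_sign (sign_of_sq hsq) hodd]
    · obtain ⟨i, -, rfl⟩ := Finset.mem_image.1 hx'
      change ((μ⁻¹) ^ q ^ i) ^ ((q ^ 2 ^ k - 1) / 2) = _
      rw [← pow_mul, mul_comm, pow_mul, inv_pow, inv_sign (sign_of_sq hsq), pow_sign (sign_of_sq hsq) hodd]

end

/-- a prime power dividing a least common multiple -/
theorem pow_dvd_lcm {r a m n : ℕ} (hr : r.Prime) (h : r ^ a ∣ Nat.lcm m n) : r ^ a ∣ m ∨ r ^ a ∣ n := by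
  rcases Nat.eq_zero_or_pos m with rfl | hm
  · exact Or.inl (dvd_zero _)
  rcases Nat.eq_zero_or_pos n with rfl | hn
  · exact Or.inr (dvd_zero _)
  rw [hr.pow_dvd_iff_le_factorization (Nat.lcm_ne_zero hm.ne' hn.ne'), Nat.factorization_lcm hm.ne' hn.ne'] at h
  rw [hr.pow_dvd_iff_le_factorization hm.ne', hr.pow_dvd_iff_le_factorization hn.ne']
  simpa using h

theorem pow_dvd_finset_lcm {ι : Type*} {r a : ℕ} (hr : r.Prime) (ha : 1 ≤ a) (s : Finset ι) (f : ι → ℕ)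
    (h : r ^ a ∣ s.lcm f) : ∃ i ∈ s, r ^ a ∣ f i := by
  classical
  induction s using Finset.induction_on with
  | empty =>
    exfalso
    rw [Finset.lcm_empty] at h
    have := Nat.dvd_one.1 h
    exact (Nat.one_lt_pow (by omega) hr.one_lt).ne' this
  | insert i s his ih =>
    rw [Finset.lcm_insert] at h
    rcases pow_dvd_lcm hr h with h | h
    · exact ⟨i, Finset.mem_insert_self _ _, h⟩
    · obtain ⟨j, hj, hjd⟩ := ih h
      exact ⟨j, Finset.mem_insert_of_mem hj, hjd⟩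

section

variable {F V : Type*} [Field F] [AddCommGroup V] [Module F V] [FiniteDimensional F V]

open Classical in
/-- **A prime power dividing the order of `g` divides the order of an eigenvalue.** -/
theorem exists_eig {p : ℕ} [hp : Fact p.Prime] [CharP F p] {g : V →ₗ[F] V} (hfin : ∀ x ∈ rts g, 0 < orderOf x)
    {r a : ℕ} (hr : r.Prime) (hrp : r ≠ p) (ha : 1 ≤ a) (h : ∀ N, 0 < N → g ^ N = 1 → r ^ a ∣ N) :
    ∃ μ ∈ rts g, r ^ a ∣ orderOf μ := by
  obtain ⟨N, hN⟩ : ∃ N, N = (rts g).toFinset.lcm orderOf := ⟨_, rfl⟩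
  have hN0 : 0 < N := by
    rw [Nat.pos_iff_ne_zero, hN]
    intro h0
    rw [Finset.lcm_eq_zero_iff] at h0
    obtain ⟨x, hx, hx0⟩ := h0
    exact (hfin x (Multiset.mem_toFinset.1 hx)).ne' hx0
  have hB : Bd (rts g) (rts g).card N := by
    refine ⟨fun x => Multiset.count_le_card _ _, fun x hx => ?_⟩
    rw [← orderOf_dvd_iff_pow_eq_one, hN]
    exact Finset.dvd_lcm (Multiset.mem_toFinset.2 hx)
  have h1 := pow_eq_one_of_bd hB (Nat.lt_pow_self hp.out.one_lt).le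
  have h2 := h _ (Nat.mul_pos hN0 (pow_pos hp.out.pos _)) h1
  have h3 : r ^ a ∣ N := by
    refine (Nat.Coprime.pow_left _ (Nat.Coprime.pow_right _ ?_)).dvd_of_dvd_mul_right h2
    exact (Nat.coprime_primes hr hp.out).2 hrp
  rw [hN] at h3
  obtain ⟨μ, hμ, hd⟩ := pow_dvd_finset_lcm hr ha _ _ h3
  exact ⟨μ, Multiset.mem_toFinset.1 hμ, hd⟩

open Classical in
/-- the roots have finite order -/
theorem order_pos [Fintype F] {g : V →ₗ[F] V} (h : Inv0 (Fintype.card F) (rts g)) {x : AlgebraicClosure F}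
    (hx : x ∈ rts g) : 0 < orderOf x := by
  have hC := cl_of_inv0 (frob_inj F) h
  obtain ⟨l, hl, hlx⟩ := hC.exists_period (Multiset.mem_toFinset.2 hx)
  rw [orderOf_pos_iff, isOfFinOrder_iff_pow_eq_one]
  have hq : 1 < Fintype.card F := Fintype.one_lt_card
  have h1 : 1 < Fintype.card F ^ l := Nat.one_lt_pow hl.ne' hq
  exact ⟨_, by omega, (pow_sub_one_iff (h.ne0 x hx) h1.le).2 ((hlx l).2 dvd_rfl)⟩

open Classical in
/-- **the torus** -/
theorem tor_core [Fintype F] {p : ℕ} [hp : Fact p.Prime] [CharP F p] (hodd : Odd (Fintype.card F)) {g : V →ₗ[F] V}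
    (h : Inv0 (Fintype.card F) (rts g)) {k : ℕ} (hk : 2 ≤ k) (hR : (rts g).toFinset.card ≤ 2 ^ (k + 1))
    (hs : ∀ i, 1 ≤ i → i < k → ∃ s, s.Prime ∧ s ≠ 2 ∧ s ∣ Fintype.card F ^ 2 ^ i + 1 ∧
      ∀ N, 0 < N → g ^ N = 1 → s ∣ N) :
    g ^ ((Fintype.card F ^ 2 ^ k - 1) * p ^ (rts g).card) = 1 := by
  refine pow_eq_one_of_bd (M := (rts g).card) ⟨fun x => Multiset.count_le_card _ _, fun x hx => ?_⟩
    (Nat.lt_pow_self hp.out.one_lt).le
  refine budget hodd hk (cl_of_inv0 (frob_inj F) h) hR (fun i hi hik => ?_) (Multiset.mem_toFinset.2 hx)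
  obtain ⟨s, hs1, hs2, hsd, hsN⟩ := hs i hi hik
  have hsp : s ≠ p := by
    rintro rfl
    have h1 : s ∣ Fintype.card F := by
      obtain ⟨n, -, hn⟩ := FiniteField.card F s
      rw [hn]
      exact dvd_pow_self s n.2.ne'
    have h2 : s ∣ 1 := (Nat.dvd_add_right (dvd_pow h1 (by positivity))).1 hsd
    exact hs1.one_lt.ne' (Nat.dvd_one.1 h2)
  obtain ⟨μ, hμ, hd⟩ := exists_eig (fun x hx => order_pos h hx) hs1 hsp le_rfl (by simpa using hsN)
  exact ⟨s, μ, hs1, hs2, hsd, Multiset.mem_toFinset.2 hμ, by simpa using hd⟩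

end

end Cfsg.Agent.H76.TP
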