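import Cfsg.Agent.H202.T.UpSp
import Cfsg.Agent.H202.TP.Defs
import Cfsg.Agent.H76.TP.Eig
import Cfsg.Agent.S0245
import Cfsg.Agent.S0246

/-!
# Block TP (S3536): the element orders of `PSp_{2n}(q)`, `n = 2 ^ k`, `q` odd (helper76)

`iso`, `two`, `tor`, `pr`.
-/

set_option autoImplicit false
set_option linter.unusedSectionVars false

namespace Cfsg.Agent.H76.TP.Sp

open Module Polynomial Matrix
open Cfsg.Agent.H160.QRoots Cfsg.Agent.H160.QChar Cfsg.Agent.H202.T Cfsg.Agent.H202.TP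

section

variable {F : Type*} [Field F] {n : ℕ}

theorem pow_of_lin (g : Matrix.symplecticGroup (Fin n) F) (N : ℕ) (a : F)
    (h : (Matrix.toLin' g.1 : (Fin n ⊕ Fin n → F) →ₗ[F] (Fin n ⊕ Fin n → F)) ^ N = algebraMap F (Module.End F _) a) :
    (g ^ N).1 = a • (1 : Matrix _ _ F) := by
  have h1 : Matrix.toLin' (g ^ N).1 = Matrix.toLin' (a • (1 : Matrix (Fin n ⊕ Fin n) (Fin n ⊕ Fin n) F)) := by
    rw [SubmonoidClass.coe_pow, Matrix.toLin'_pow, h, map_smul, Matrix.toLin'_one]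
    rfl
  exact Matrix.toLin'.injective h1

theorem dvd_of_one (g : Matrix.symplecticGroup (Fin n) F) {N : ℕ}
    (h : (Matrix.toLin' g.1 : (Fin n ⊕ Fin n → F) →ₗ[F] (Fin n ⊕ Fin n → F)) ^ N = 1) :
    orderOf (g : Cfsg.PSp n F) ∣ N := by
  apply orderOf_psp_dvd
  left
  rw [pow_of_lin g N 1 (by rw [h, map_one]), one_smul]

open Classical in
theorem dvd_of_sign (g : Matrix.symplecticGroup (Fin n) F) {N : ℕ} (hN : 0 < N)
    (hcnt : ∀ x, (rts (Matrix.toLin' g.1 : (Fin n ⊕ Fin n → F) →ₗ[F] (Fin n ⊕ Fin n → F))).count x ≤ 1)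
    {a : AlgebraicClosure F} (ha : a = 1 ∨ a = -1)
    (h : ∀ x ∈ rts (Matrix.toLin' g.1 : (Fin n ⊕ Fin n → F) →ₗ[F] (Fin n ⊕ Fin n → F)), x ^ N = a) :
    orderOf (g : Cfsg.PSp n F) ∣ N := by
  obtain ⟨b, hb, hab⟩ : ∃ b : F, (b = 1 ∨ b = -1) ∧ a = algebraMap F (AlgebraicClosure F) b := by
    rcases ha with rfl | rfl
    · exact ⟨1, Or.inl rfl, by rw [map_one]⟩
    · exact ⟨-1, Or.inr rfl, by rw [map_neg, map_one]⟩
  have h1 := pow_of_lin g N b (pow_eq_of_simple hN b hcnt fun x hx => by rw [h x hx, hab])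
  apply orderOf_psp_dvd
  rcases hb with rfl | rfl
  · left; rw [h1, one_smul]
  · right; rw [h1, neg_smul, one_smul]

theorem card_rts_sp (g : Matrix.symplecticGroup (Fin n) F) :
    (rts (Matrix.toLin' g.1 : (Fin n ⊕ Fin n → F) →ₗ[F] (Fin n ⊕ Fin n → F))).card = 2 * n := by
  rw [card_rts, Module.finrank_fintype_fun_eq_card, Fintype.card_sum, Fintype.card_fin]
  ring

end

section

variable {F : Type*} [Field F] [Fintype F] {p a k : ℕ}

theorem charP_of (hp : p.Prime) (hF : Fintype.card F = p ^ a) : CharP F p := by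
  have := Fact.mk hp
  obtain ⟨r, hr⟩ := CharP.exists F
  have hrp : Fact r.Prime := ⟨CharP.char_is_prime F r⟩
  obtain ⟨n, -, hn⟩ := FiniteField.card F r
  have h1 : r ∣ p ^ a := by
    rw [← hF, hn]
    exact dvd_pow_self r n.2.ne'
  have := (Nat.prime_dvd_prime_iff_eq hrp.out hp).1 (hrp.out.dvd_of_dvd_pow h1)
  rwa [this] at hr

theorem odd_of (hp : p.Prime) (hp2 : p ≠ 2) (hF : Fintype.card F = p ^ a) : Odd (Fintype.card F) := by
  rw [hF]
  exact (hp.odd_of_ne_two hp2).pow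

/-- **isolation** -/
theorem iso (hp : p.Prime) (hp2 : p ≠ 2) (hF : Fintype.card F = p ^ a) (hk : 2 ≤ k) (x : Cfsg.PSp (2 ^ k) F) {r : ℕ}
    (hr : r.Prime) (hrm : r ∣ mn (Fintype.card F) k) (hrx : r ∣ orderOf x) : orderOf x ∣ mn (Fintype.card F) k := by
  classical
  obtain ⟨g, rfl⟩ := QuotientGroup.mk_surjective x
  have := Fact.mk hp
  have := charP_of hp hF
  have hodd := odd_of hp hp2 hF
  have h0 := inv0_sp g
  have hrq : r ∣ Fintype.card F ^ 2 ^ k + 1 := by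
    rw [← two_mn hk hodd]
    exact hrm.mul_left 2
  have hr2 : r ≠ 2 := by
    rintro rfl
    rw [mn_eq hk] at hrm
    have := mm_mod (q := Fintype.card F ^ 2 ^ (k - 2)) hodd.pow
    omega
  have hrp : r ≠ p := by
    rintro rfl
    have ha : a ≠ 0 := by
      rintro rfl
      rw [pow_zero] at hF
      have := Fintype.one_lt_card (α := F)
      omega
    have h1 : r ∣ Fintype.card F := by rw [hF]; exact dvd_pow_self r ha
    have h2 : r ∣ 1 := (Nat.dvd_add_right (dvd_pow h1 (by positivity))).1 hrq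
    exact hr.one_lt.ne' (Nat.dvd_one.1 h2)
  obtain ⟨μ, hμ, hd⟩ := exists_eig (g := (Matrix.toLin' g.1 : (Fin (2 ^ k) ⊕ Fin (2 ^ k) → F) →ₗ[F] _)) (a := 1)
    (fun x hx => order_pos h0 hx) hr hrp le_rfl (fun N _ hN => by
      rw [pow_one]
      exact hrx.trans (dvd_of_one g hN))
  rw [pow_one] at hd
  obtain ⟨hcnt, b, hb, hall⟩ := iso_core (k := k) (frob_inj F) hodd h0 (by rw [card_rts_sp, pow_succ, mul_comm]) hμ hr hr2
    hrq hd
  refine dvd_of_sign g ?_ hcnt hb hall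
  have : 1 ≤ Fintype.card F ^ 2 ^ k := Nat.one_le_pow _ _ hodd.pos
  unfold mn
  omega

/-- **the powers of 2** -/
theorem two (hp : p.Prime) (hp2 : p ≠ 2) (hF : Fintype.card F = p ^ a) (hk : 2 ≤ k) (x : Cfsg.PSp (2 ^ k) F) {j : ℕ}
    (hj : 2 ^ j ∣ orderOf x) : 2 ^ j ∣ mn (Fintype.card F) k - 1 := by
  classical
  obtain ⟨g, rfl⟩ := QuotientGroup.mk_surjective x
  have := Fact.mk hp
  have := charP_of hp hF
  have hodd := odd_of hp hp2 hF
  have h0 := inv0_sp g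
  have hlt : 1 < Fintype.card F ^ 2 ^ k := Nat.one_lt_pow (by positivity) Fintype.one_lt_card
  obtain ⟨b, o, ho, hbo⟩ := Nat.exists_eq_two_pow_mul_odd (n := Fintype.card F ^ 2 ^ k - 1) (by omega)
  have hb1 : 1 ≤ b := by
    by_contra hc
    have : b = 0 := by omega
    rw [this, pow_zero, one_mul] at hbo
    rw [← hbo] at ho
    exact (Nat.not_even_iff_odd.2 ho) (Nat.Odd.sub_odd hodd.pow odd_one)
  obtain ⟨c, rfl⟩ : ∃ c, b = c + 1 := ⟨b - 1, by omega⟩
  have h2 : mn (Fintype.card F) k - 1 = 2 ^ c * o := by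
    have h3 := two_mn_sub hk hodd
    rw [hbo, pow_succ] at h3
    have : 2 * (2 ^ c * o) = 2 ^ c * 2 * o := by ring
    omega
  rcases Nat.lt_or_ge c j with h3 | h3
  · exfalso
    have hj' : 2 ^ (c + 1) ∣ orderOf (g : Cfsg.PSp (2 ^ k) F) := (pow_dvd_pow 2 h3).trans hj
    obtain ⟨μ, hμ, hd⟩ := exists_eig (g := (Matrix.toLin' g.1 : (Fin (2 ^ k) ⊕ Fin (2 ^ k) → F) →ₗ[F] _)) (a := c + 1)
      (fun x hx => order_pos h0 hx) Nat.prime_two hp2.symm (by omega) (fun N _ hN => hj'.trans (dvd_of_one g hN))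
    obtain ⟨hcnt, b, hb, hall⟩ := two_core (k := k) (frob_inj F) hodd h0 hk (by rw [card_rts_sp, pow_succ, mul_comm]) hμ
      (by rw [hbo]; exact Dvd.intro _ rfl) (fun h5 => by
        rw [hbo, pow_succ 2 (c + 1)] at h5
        have h6 : 2 ∣ o := (Nat.mul_dvd_mul_iff_left (by positivity)).1 h5
        exact (Nat.not_even_iff_odd.2 ho) (even_iff_two_dvd.2 h6)) hd
    have e : (Fintype.card F ^ 2 ^ k - 1) / 2 = 2 ^ c * o := by
      rw [half_mn hk hodd, h2]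
    have h7 := dvd_of_sign g (by rw [e]; exact Nat.mul_pos (by positivity) ho.pos) hcnt hb hall
    rw [e] at h7
    have h8 := hj'.trans h7
    rw [pow_succ] at h8
    have h9 : 2 ∣ o := (Nat.mul_dvd_mul_iff_left (by positivity)).1 h8
    exact (Nat.not_even_iff_odd.2 ho) (even_iff_two_dvd.2 h9)
  · rw [h2]
    exact (pow_dvd_pow 2 h3).mul_right _

/-- **the torus** -/
theorem tor (hp : p.Prime) (hp2 : p ≠ 2) (hF : Fintype.card F = p ^ a) (hk : 2 ≤ k) (x : Cfsg.PSp (2 ^ k) F)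
    (hx : ∀ i, 1 ≤ i → i < k → ∃ s, s.Prime ∧ s ≠ 2 ∧ s ∣ Fintype.card F ^ 2 ^ i + 1 ∧ s ∣ orderOf x) :
    ∃ j, orderOf x ∣ p ^ j * (Fintype.card F ^ 2 ^ k - 1) := by
  classical
  obtain ⟨g, rfl⟩ := QuotientGroup.mk_surjective x
  have := Fact.mk hp
  have := charP_of hp hF
  have hodd := odd_of hp hp2 hF
  have h0 := inv0_sp g
  have key := tor_core (p := p) hodd h0 hk ((Multiset.toFinset_card_le _).trans (by rw [card_rts_sp, pow_succ, mul_comm]))
    fun i hi hik => by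
      obtain ⟨s, hs, hs2, hsd, hsx⟩ := hx i hi hik
      exact ⟨s, hs, hs2, hsd, fun N _ hN => hsx.trans (dvd_of_one g hN)⟩
  exact ⟨_, by rw [mul_comm]; exact dvd_of_one g key⟩

/-- **the primes** -/
theorem pr (hp : p.Prime) (hF : Fintype.card F = p ^ a) {r : ℕ} (hr : r.Prime)
    (hrd : r ∣ Nat.card (Cfsg.PSp (2 ^ k) F)) :
    r = p ∨ ∃ i, 1 ≤ i ∧ i ≤ 2 ^ k ∧ r ∣ Fintype.card F ^ (2 * i) - 1 := by
  have h1 := Cfsg.Agent.S0245.result (F := F) rfl (2 ^ k)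
  have h3 := Subgroup.card_mul_index (Subgroup.center ↥(Matrix.symplecticGroup (Fin (2 ^ k)) F))
  rw [h1] at h3
  have h4 : r ∣ Fintype.card F ^ ((2 ^ k) ^ 2) * ∏ i ∈ Finset.range (2 ^ k), (Fintype.card F ^ (2 * (i + 1)) - 1) := by
    rw [← h3]
    exact hrd.mul_left _
  rcases hr.dvd_mul.1 h4 with h5 | h5
  · left
    have h6 := hr.dvd_of_dvd_pow h5
    rw [hF] at h6
    exact (Nat.prime_dvd_prime_iff_eq hr hp).1 (hr.dvd_of_dvd_pow h6)
  · right
    obtain ⟨i, hi, h6⟩ := (hr.prime.dvd_finsetProd_iff _).1 h5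
    rw [Finset.mem_range] at hi
    exact ⟨i + 1, by omega, by omega, h6⟩

end

end Cfsg.Agent.H76.TP.Sp
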